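import Cfsg.Agent.H757.RvTools
import Cfsg.Agent.H773.RvDefs

/-!
# Three pairwise noncommuting `p`-central elements (helper757, for S5207)
-/

set_option autoImplicit false

namespace Cfsg.Agent.H757.RvT

open Subgroup Cfsg

universe u

variable {G : Type u} [Group G] {p : ℕ} {x z : G} {P : Sylow p G} {O : Subgroup G}

theorem comm_zpow {c y : G} (hc : c * x = x * c) (hy : y ∈ zpowers x) : c * y = y * c := by
  obtain ⟨k, rfl⟩ := hy
  exact ((show Commute c x from hc).zpow_right k).eq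

/-- elements inverting `x` normalise `P` -/
theorem Out.norm_inv (h : Out p x z P O) {w : G} (hw : w * x * w⁻¹ = x⁻¹) :
    ∀ g ∈ P, w * g * w⁻¹ ∈ P := by
  intro g hg
  have h1 : (P : Subgroup G).map (MulAut.conj w).toMonoidHom ≤ P := by
    refine h.le (P.2.map _) ?_
    rintro _ ⟨v, hv, rfl⟩
    show w * v * w⁻¹ * x = x * (w * v * w⁻¹)
    have h2 := h.cent v hv
    have h3 : w⁻¹ * x * w = x⁻¹ := by
      have h4 : (w * x * w⁻¹)⁻¹ = x := by rw [hw, inv_inv]
      calc w⁻¹ * x * w = w⁻¹ * (w * x * w⁻¹)⁻¹ * w := by rw [h4]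
        _ = x⁻¹ := by group
    have h5 : v * x⁻¹ = x⁻¹ * v := by
      exact ((show Commute v x from h2).inv_right).eq
    calc w * v * w⁻¹ * x = w * (v * (w⁻¹ * x * w)) * w⁻¹ := by group
      _ = w * (x⁻¹ * v) * w⁻¹ := by rw [h3, h5]
      _ = (w * x * w⁻¹)⁻¹ * (w * v * w⁻¹) := by group
      _ = x * (w * v * w⁻¹) := by rw [hw, inv_inv]
  exact h1 ⟨g, hg, rfl⟩

/-- an involution inverting `x` centralises a nontrivial element of a nonabelian `P` -/
theorem Out.exists_fixed [Finite G] (h : Out p x z P O) (hnab : ∃ a ∈ P, ∃ b ∈ P, a * b ≠ b * a) {w : G}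
    (hww : w * w = 1) (hw : w * x * w⁻¹ = x⁻¹) : ∃ g ∈ P, g ≠ 1 ∧ w * g = g * w := by
  by_contra hcon
  push Not at hcon
  let φ : (P : Subgroup G) →* (P : Subgroup G) :=
    { toFun := fun v => ⟨w * v * w⁻¹, h.norm_inv hw v v.2⟩
      map_one' := Subtype.ext (by simp)
      map_mul' := fun a b => Subtype.ext (by
        show w * (a * b : G) * w⁻¹ = w * a * w⁻¹ * (w * b * w⁻¹)
        group) }
  have hφ : ∀ v : (P : Subgroup G), ((φ v : (P : Subgroup G)) : G) = w * v * w⁻¹ := fun v => rfl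
  have h1 : MonoidHom.FixedPointFree φ := by
    intro v hv
    by_contra hne
    have h2 : w * (v : G) * w⁻¹ = v := by rw [← hφ, hv]
    exact hcon v v.2 (fun h3 => hne (Subtype.ext h3)) (mul_inv_eq_iff_eq_mul.1 h2)
  have h2 : Function.Involutive φ := by
    intro v
    apply Subtype.ext
    rw [hφ, hφ]
    have h3 : w⁻¹ = w := inv_eq_of_mul_eq_one_right hww
    calc w * (w * (v : G) * w⁻¹) * w⁻¹ = (w * w) * v * (w * w)⁻¹ := by group
      _ = v := by rw [hww]; group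
  obtain ⟨a, ha, b, hb, hab⟩ := hnab
  have h3 : Commute (⟨a, ha⟩ : (P : Subgroup G)) ⟨b, hb⟩ := h1.commute_all_of_involutive h2 _ _
  exact hab (congrArg Subtype.val h3.eq)

/-- `g ^ 2 ∈ ⟨x⟩` implies `g ∈ ⟨x⟩` for elements of `P` -/
theorem Out.mem_of_sq (h : Out p x z P O) (hp : Odd p) {g : G} (hg : g ∈ P) (h2 : g * g ∈ zpowers x) :
    g ∈ zpowers x := by
  obtain ⟨m, hm⟩ := hp
  have h3 := h.exp g hg
  rw [hm] at h3
  have h4 : g = (g * g) ^ (m + 1) := by
    rw [← pow_two, ← pow_mul]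
    calc g = g ^ (2 * m + 1) * g := by rw [h3, one_mul]
      _ = g ^ (2 * (m + 1)) := by rw [← pow_succ]; congr 1
  rw [h4]
  exact pow_mem h2 _

/-- two commuting elements of `P` outside `⟨x⟩` are proportional mod `⟨x⟩` if `P` is nonabelian -/
theorem Out.mem_closure [Finite G] (h : Out p x z P O) (hpp : p.Prime) (hxo : orderOf x = p)
    (hnab : ∃ a ∈ P, ∃ b ∈ P, a * b ≠ b * a)
    {a b : G} (ha : a ∈ P) (hb : b ∈ P) (hax : a ∉ zpowers x) (hab : a * b = b * a) :
    b ∈ closure ({x, a} : Set G) := by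
  by_contra hcon
  have hK1 : closure ({x, a} : Set G) ≤ P := by
    rw [closure_le]
    rintro y (rfl | rfl)
    · exact h.xP
    · exact ha
  have hK2 : closure ({x, a, b} : Set G) ≤ P := by
    rw [closure_le]
    rintro y (rfl | rfl | rfl)
    · exact h.xP
    · exact ha
    · exact hb
  have hle1 : zpowers x < closure ({x, a} : Set G) := by
    refine lt_of_le_of_ne ((zpowers_le).2 (subset_closure (Or.inl rfl))) ?_
    intro he
    exact hax (he ▸ subset_closure (Or.inr rfl))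
  have hle2 : closure ({x, a} : Set G) < closure ({x, a, b} : Set G) := by
    refine lt_of_le_of_ne (closure_mono ?_) ?_
    · rintro y (rfl | rfl)
      · exact Or.inl rfl
      · exact Or.inr (Or.inl rfl)
    · intro he
      exact hcon (he ▸ subset_closure (Or.inr (Or.inr rfl)))
  have hc1 : Nat.card (zpowers x) < Nat.card (closure ({x, a} : Set G)) := by
    exact Set.Finite.card_lt_card (Set.toFinite _) hle1
  have hc2 : Nat.card (closure ({x, a} : Set G)) < Nat.card (closure ({x, a, b} : Set G)) := by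
    exact Set.Finite.card_lt_card (Set.toFinite _) hle2
  have hd1 := Subgroup.card_dvd_of_le hK1
  have hd2 := Subgroup.card_dvd_of_le hK2
  have hc : Nat.card ((P : Subgroup G)) = p ^ 3 := h.card
  rw [hc] at hd1 hd2
  obtain ⟨m1, -, hm1⟩ := (Nat.dvd_prime_pow hpp).1 hd1
  obtain ⟨m2, hm2', hm2⟩ := (Nat.dvd_prime_pow hpp).1 hd2
  rw [Nat.card_zpowers, hxo, hm1] at hc1
  rw [hm1, hm2] at hc2
  have e1 : 1 < m1 := (Nat.pow_lt_pow_iff_right hpp.one_lt).1 (by rw [pow_one]; exact hc1)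
  have e2 : m1 < m2 := (Nat.pow_lt_pow_iff_right hpp.one_lt).1 hc2
  have e3 : m2 = 3 := by omega
  have e4 : closure ({x, a, b} : Set G) = P := by
    apply eq_of_le_of_card_ge hK2
    rw [hm2, e3, hc]
  -- the closure is abelian
  have e5 : ∀ s ∈ ({x, a, b} : Set G), ∀ t ∈ ({x, a, b} : Set G), s * t = t * s := by
    have hax' := h.cent a ha
    have hbx' := h.cent b hb
    rintro s (rfl | rfl | rfl) t (rfl | rfl | rfl)
    · rfl
    · exact hax'.symm
    · exact hbx'.symm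
    · exact hax'
    · rfl
    · exact hab
    · exact hbx'
    · exact hab.symm
    · rfl
  have e6 : closure ({x, a, b} : Set G) ≤ centralizer ({x, a, b} : Set G) := by
    rw [closure_le]
    intro s hs
    rw [SetLike.mem_coe, mem_centralizer_iff]
    intro t ht
    exact e5 t ht s hs
  have e7 : closure ({x, a, b} : Set G) ≤ centralizer ((closure ({x, a, b} : Set G) : Subgroup G) : Set G) := by
    rw [closure_le]
    intro s hs
    rw [SetLike.mem_coe, mem_centralizer_iff]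
    intro t ht
    exact ((mem_centralizer_iff.1 (e6 ht)) s hs).symm
  obtain ⟨c, hc', d, hd', hcd⟩ := hnab
  have hc'' : c ∈ closure ({x, a, b} : Set G) := by rw [e4]; exact hc'
  have hd'' : d ∈ closure ({x, a, b} : Set G) := by rw [e4]; exact hd'
  exact hcd ((mem_centralizer_iff.1 (e7 hd'')) c hc'')

/-- fixed elements of two of the involutions do not commute -/
theorem Out.not_comm [Finite G] (h : Out p x z P O) (hpp : p.Prime) (hp : Odd p) (hxo : orderOf x = p)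
    (hnab : ∃ a ∈ P, ∃ b ∈ P, a * b ≠ b * a) {v w : G}
    (hv : v * x * v⁻¹ = x⁻¹) (hw : w * x * w⁻¹ = x⁻¹)
    (hvw : v * w * (v * w) = z) {a b : G} (ha : a ∈ P) (hb : b ∈ P) (hax : a ∉ zpowers x)
    (hbx : b ∉ zpowers x) (hva : v * a = a * v) (hwb : w * b = b * w) : a * b ≠ b * a := by
  intro hab
  have h1 := h.mem_closure hpp hxo hnab ha hb hax hab
  -- elements fixed by `v` mod `⟨x⟩`
  let F : Subgroup G :=
    { carrier := {g | g * x = x * g ∧ v * g * v⁻¹ * g⁻¹ ∈ zpowers x}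
      one_mem' := ⟨by simp, by simp⟩
      mul_mem' := by
        rintro g k ⟨hg1, hg2⟩ ⟨hk1, hk2⟩
        refine ⟨by rw [mul_assoc, hk1, ← mul_assoc, hg1, mul_assoc], ?_⟩
        have h3 : v * (g * k) * v⁻¹ * (g * k)⁻¹ = (v * g * v⁻¹ * g⁻¹) * (g * (v * k * v⁻¹ * k⁻¹) * g⁻¹) := by
          group
        rw [h3, comm_zpow hg1 hk2, mul_inv_cancel_right]
        exact mul_mem hg2 hk2
      inv_mem' := by
        rintro g ⟨hg1, hg2⟩
        have hg3 : g⁻¹ * x = x * g⁻¹ := (show Commute g x from hg1).inv_left.eq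
        refine ⟨hg3, ?_⟩
        have h3 : v * g⁻¹ * v⁻¹ * g⁻¹⁻¹ = g⁻¹ * ((v * g * v⁻¹ * g⁻¹)⁻¹) * g⁻¹⁻¹ := by group
        rw [h3, comm_zpow hg3 (inv_mem hg2), mul_inv_cancel_right]
        exact inv_mem hg2 }
  have h2 : closure ({x, a} : Set G) ≤ F := by
    rw [closure_le]
    rintro y (rfl | rfl)
    · refine ⟨rfl, ?_⟩
      rw [hv, ← mul_inv_rev]
      exact inv_mem (mul_mem (mem_zpowers _) (mem_zpowers _))
    · refine ⟨h.cent _ ha, ?_⟩
      rw [hva, mul_inv_cancel_right, mul_inv_cancel]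
      exact one_mem _
  obtain ⟨-, k, hk⟩ := h2 h1
  have hk' : v * b * v⁻¹ = x ^ k * b := by rw [show x ^ k = _ from hk]; group
  have e1 : (v * w) * b * (v * w)⁻¹ = x ^ k * b := by
    calc (v * w) * b * (v * w)⁻¹ = v * (w * b) * w⁻¹ * v⁻¹ := by group
      _ = v * b * v⁻¹ := by rw [hwb]; group
      _ = x ^ k * b := hk'
  have e2 : (v * w) * x ^ k * (v * w)⁻¹ = x ^ k := by
    calc (v * w) * x ^ k * (v * w)⁻¹ = v * (w * x ^ k * w⁻¹) * v⁻¹ := by group
      _ = x ^ k := by rw [← conj_zpow, hw, inv_zpow, ← conj_inv, ← conj_zpow, hv, inv_zpow, inv_inv]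
  have e3 : z * b * z⁻¹ = x ^ k * (x ^ k * b) := by
    calc z * b * z⁻¹ = (v * w) * ((v * w) * b * (v * w)⁻¹) * (v * w)⁻¹ := by rw [← hvw]; group
      _ = (v * w) * (x ^ k * b) * (v * w)⁻¹ := by rw [e1]
      _ = (v * w) * x ^ k * (v * w)⁻¹ * ((v * w) * b * (v * w)⁻¹) := by group
      _ = x ^ k * (x ^ k * b) := by rw [e1, e2]
  have e4 := h.inv b hb
  rw [e3] at e4
  have e5 : b * b ∈ zpowers x := by
    have h5 : b * b = (x ^ k)⁻¹ * ((x ^ k)⁻¹ * (x ^ k * (x ^ k * b) * b)) := by group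
    rw [h5]
    exact mul_mem (inv_mem ⟨k, rfl⟩) (mul_mem (inv_mem ⟨k, rfl⟩) e4)
  exact hbx (h.mem_of_sq hp hb e5)

/-- the nonabelian case -/
theorem Out.three [Finite G] (h : Out p x z P O) (hpp : p.Prime) (hp : Odd p) (hxo : orderOf x = p)
    (hnab : ∃ a ∈ P, ∃ b ∈ P, a * b ≠ b * a) (w : Fin 3 → G) (hww : ∀ a, w a * w a = 1)
    (hwx : ∀ a, w a * x * (w a)⁻¹ = x⁻¹) (hwz : ∀ a b, a ≠ b → w a * w b * (w a * w b) = z)
    (hconj : ∀ g ∈ P, g ≠ 1 → ∀ s : G, s * s = 1 → s ≠ 1 → s * g = g * s → ∃ k : ℤ, IsConj g (x ^ k)) :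
    H773.Rv.Three (P : Subgroup G) := by
  have hx1 : x ≠ 1 := by
    rintro rfl
    rw [orderOf_one] at hxo
    exact hpp.one_lt.ne hxo
  have hw1 : ∀ a, w a ≠ 1 := by
    intro a ha
    have h1 := hwx a
    rw [ha, one_mul, inv_one, mul_one] at h1
    apply hx1
    refine eq_one_of_sq hp hxo (mem_zpowers x) ?_
    rw [mul_eq_one_iff_eq_inv]
    exact h1
  have hex : ∀ a, ∃ g ∈ P, g ≠ 1 ∧ w a * g = g * w a := fun a => h.exists_fixed hnab (hww a) (hwx a)
  choose g hgP hg1 hgw using hex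
  have hgx : ∀ a, g a ∉ zpowers x := by
    intro a ha
    apply hg1 a
    refine eq_one_of_sq hp hxo ha ?_
    obtain ⟨k, hk⟩ := ha
    have h1 : w a * g a * (w a)⁻¹ = (g a)⁻¹ := by
      rw [← hk]
      show w a * x ^ k * (w a)⁻¹ = (x ^ k)⁻¹
      rw [← conj_zpow, hwx, inv_zpow]
    rw [hgw, mul_inv_cancel_right] at h1
    rw [mul_eq_one_iff_eq_inv]
    exact h1
  have hnc : ∀ a b, a ≠ b → g a * g b ≠ g b * g a := fun a b hab =>
    h.not_comm hpp hp hxo hnab (hwx a) (hwx b) (hwz a b hab) (hgP a) (hgP b) (hgx a) (hgx b) (hgw a) (hgw b)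
  refine ⟨g 0, hgP 0, g 1, hgP 1, g 2, hgP 2, hnc 0 1 (by decide), hnc 1 2 (by decide),
    hnc 0 2 (by decide), ?_⟩
  have hall : ∀ a, ∃ y ∈ (P : Subgroup G), H773.Rv.InZ (P : Subgroup G) y ∧ IsConj (g a) y := by
    intro a
    obtain ⟨k, hk⟩ := hconj (g a) (hgP a) (hg1 a) (w a) (hww a) (hw1 a) (hgw a)
    refine ⟨x ^ k, zpow_mem h.xP k, ?_, hk⟩
    intro s hs
    exact comm_zpow (h.cent s hs) ⟨k, rfl⟩
  rintro y (rfl | rfl | rfl)
  · exact hall 0
  · exact hall 1
  · exact hall 2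

end Cfsg.Agent.H757.RvT
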