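import Cfsg.Agent.S0215
import Mathlib.GroupTheory.FixedPointFree
import Mathlib.GroupTheory.SpecificGroups.Cyclic

/-!
# The centralizer of a `p`-central element with `SL₂(3)`-like involution centralizer (helper757, for S5207)

`Hyp p x z i j`: `x` has order `p`, `z` is the only involution of `C(x) ∩ C(z)`, `i` and `j` in `C(x)` have square `z`
and `i j = j i z`, normal subgroups of odd order of `C(x) ∩ C(z)` are contained in `⟨x⟩`.

`exists_out`: if `p ^ 3` is the exact `p`-part of `|G|` and `p ^ 2` does not divide `|C(z)|`, then a Sylow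
`p`-subgroup `P` of `G` is normal in `C(x)`, of exponent `p`, and `z` inverts `P / ⟨x⟩` (uses the Z*-theorem).
-/

set_option autoImplicit false

namespace Cfsg.Agent.H757.RvT

open Subgroup Cfsg

universe u

variable {G : Type u} [Group G]

/-- local hypotheses -/
structure Hyp (p : ℕ) (x z i j : G) : Prop where
  xo : orderOf x = p
  zz : z * z = 1
  z1 : z ≠ 1
  xz : x * z = z * x
  only : ∀ t : G, t * x = x * t → t * z = z * t → t * t = 1 → t = 1 ∨ t = z
  ix : i * x = x * i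
  jx : j * x = x * j
  ii : i * i = z
  jj : j * j = z
  ij : i * j = j * i * z
  odd : ∀ N : Subgroup G, Odd (Nat.card N) → (∀ n ∈ N, n * x = x * n ∧ n * z = z * n) →
    (∀ e : G, e * x = x * e → e * z = z * e → ∀ n ∈ N, e * n * e⁻¹ ∈ N) → N ≤ zpowers x

/-- an involution acting without fixed points on a normal subgroup inverts it -/
theorem inv_of_free [Finite G] {s : G} (hs : s * s = 1) {W : Subgroup G} [hW : W.Normal]
    (hf : ∀ w ∈ W, s * w = w * s → w = 1) :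
    (∀ w ∈ W, s * w * s⁻¹ = w⁻¹) ∧ ∀ a ∈ W, ∀ b ∈ W, a * b = b * a := by
  let φ : ↥W →* ↥W := (MulAut.conjNormal s : MulAut ↥W).toMonoidHom
  have hφ : ∀ w : ↥W, ((φ w : ↥W) : G) = s * w * s⁻¹ := fun w => MulAut.conjNormal_apply s w
  have h1 : MonoidHom.FixedPointFree φ := by
    intro w hw
    have h2 : s * (w : G) * s⁻¹ = w := by rw [← hφ, hw]
    exact Subtype.ext (hf w w.2 (mul_inv_eq_iff_eq_mul.1 h2))
  have h2 : Function.Involutive φ := by
    intro w
    apply Subtype.ext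
    rw [hφ, hφ]
    have h3 : s⁻¹ = s := inv_eq_of_mul_eq_one_right hs
    calc s * (s * (w : G) * s⁻¹) * s⁻¹ = (s * s) * w * (s * s)⁻¹ := by group
      _ = w := by rw [hs]; group
  refine ⟨fun w hw => ?_, fun a ha b hb => ?_⟩
  · have h3 := congrFun (h1.coe_eq_inv_of_involutive h2) ⟨w, hw⟩
    have h4 := congrArg (Subtype.val) h3
    rw [hφ] at h4
    exact h4
  · have h3 : Commute (⟨a, ha⟩ : ↥W) ⟨b, hb⟩ := h1.commute_all_of_involutive h2 _ _
    exact congrArg Subtype.val h3.eq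

/-- square roots in `⟨x⟩`: if `x ^ k` has trivial square then it is trivial -/
theorem eq_one_of_sq {p : ℕ} (hp2 : Odd p) {x y : G} (hx : orderOf x = p) (hy : y ∈ zpowers x)
    (h : y * y = 1) : y = 1 := by
  obtain ⟨k, rfl⟩ := hy
  have h1 : (x ^ k) ^ p = 1 := by
    rw [← zpow_natCast, ← zpow_mul, mul_comm, zpow_mul, zpow_natCast, ← hx, pow_orderOf_eq_one,
      one_zpow]
  obtain ⟨m, hm⟩ := hp2
  rw [hm, pow_add, pow_mul, pow_two, h, one_pow, one_mul, pow_one] at h1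
  exact h1

section central

variable [Finite G] {p : ℕ} {x z i j : G}

/-- `z` is isolated if `x` is central -/
theorem Hyp.iso (h : Hyp p x z i j) (hx : ∀ g : G, g * x = x * g) : Involutions.ZStar.Iso z := by
  refine ⟨h.zz, fun g => ?_⟩
  have hzi : z⁻¹ = z := inv_eq_of_mul_eq_one_left h.zz
  by_contra hodd
  rw [Nat.not_odd_iff_even] at hodd
  obtain ⟨v, hv⟩ : ∃ v, v = g * z * g⁻¹ := ⟨_, rfl⟩
  rw [← hv] at hodd
  have hvv : v * v = 1 := by
    rw [hv]
    calc g * z * g⁻¹ * (g * z * g⁻¹) = g * (z * z) * g⁻¹ := by group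
      _ = 1 := by rw [h.zz]; group
  have hvi : v⁻¹ = v := inv_eq_of_mul_eq_one_left hvv
  obtain ⟨w, hw⟩ : ∃ w, w = z * v := ⟨_, rfl⟩
  rw [← hw] at hodd
  obtain ⟨n, hn⟩ := hodd
  have hn2 : orderOf w = 2 * n := by rw [hn]; ring
  have hpos : 0 < orderOf w := orderOf_pos w
  set t := w ^ n with ht
  have htt : t * t = 1 := by
    rw [ht, ← pow_add, ← hn, pow_orderOf_eq_one]
  have ht1 : t ≠ 1 := by
    intro h1
    have h2 := orderOf_dvd_of_pow_eq_one h1
    have h3 := Nat.le_of_dvd (by omega) h2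
    omega
  have hti : t⁻¹ = t := inv_eq_of_mul_eq_one_left htt
  have hzw : z * w * z⁻¹ = w⁻¹ := by
    rw [hw, mul_inv_rev, hvi, hzi]
    calc z * (z * v) * z = (z * z) * v * z := by group
      _ = v * z := by rw [h.zz, one_mul]
  have hvw : v * w * v⁻¹ = w⁻¹ := by
    rw [hw, mul_inv_rev, hvi, hzi]
    calc v * (z * v) * v = v * z * (v * v) := by group
      _ = v * z := by rw [hvv, mul_one]
  have hzt : t * z = z * t := by
    have h1 : z * t * z⁻¹ = t := by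
      rw [ht]
      conv_rhs => rw [← ht, ← hti, ht, ← inv_pow]
      rw [← hzw, conj_pow]
    exact (mul_inv_eq_iff_eq_mul.1 h1).symm
  have hvt : t * v = v * t := by
    have h1 : v * t * v⁻¹ = t := by
      rw [ht]
      conv_rhs => rw [← ht, ← hti, ht, ← inv_pow]
      rw [← hvw, conj_pow]
    exact (mul_inv_eq_iff_eq_mul.1 h1).symm
  have e1 : t = z := (h.only t (hx t) hzt htt).resolve_left ht1
  have e2 : g⁻¹ * t * g = z := by
    refine (h.only _ (hx _) ?_ ?_).resolve_left ?_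
    · have : z = g⁻¹ * v * g := by rw [hv]; group
      rw [this]
      calc g⁻¹ * t * g * (g⁻¹ * v * g) = g⁻¹ * (t * v) * g := by group
        _ = g⁻¹ * (v * t) * g := by rw [hvt]
        _ = g⁻¹ * v * g * (g⁻¹ * t * g) := by group
    · calc g⁻¹ * t * g * (g⁻¹ * t * g) = g⁻¹ * (t * t) * g := by group
        _ = 1 := by rw [htt]; group
    · intro h1
      apply ht1
      calc t = g * (g⁻¹ * t * g) * g⁻¹ := by group
        _ = 1 := by rw [h1]; group
  have e3 : v = t := by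
    rw [hv, ← e2]; group
  have e4 : w = 1 := by rw [hw, e3, ← e1, htt]
  rw [e4, orderOf_one] at hn
  omega

omit [Finite G] in
theorem Hyp.x_mem (h : Hyp p x z i j) (hp : Odd p) (hx : ∀ g : G, g * x = x * g) :
    x ∈ pPrimeCore 2 G := by
  have h1 : (zpowers x).Normal := by
    refine ⟨fun n hn g => ?_⟩
    obtain ⟨k, rfl⟩ := hn
    have h2 : Commute g (x ^ k) := (show Commute g x from hx g).zpow_right k
    rw [h2.eq, mul_inv_cancel_right]
    exact ⟨k, rfl⟩
  refine Lib.Cores.le_pPrimeCore h1 ?_ (mem_zpowers x)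
  rw [Nat.card_zpowers, h.xo]
  exact Nat.coprime_two_right.2 hp

theorem odd_core : Odd (Nat.card (pPrimeCore 2 G)) :=
  Nat.coprime_two_right.mp (Lib.Cores.pPrimeCore_coprime 2)

/-- `G = O(G) C(z)` -/
theorem Hyp.frattini (h : Hyp p x z i j) (hx : ∀ g : G, g * x = x * g) (g : G) :
    ∃ o ∈ pPrimeCore 2 G, ∃ e : G, e * z = z * e ∧ g = o * e := by
  have hzi : z⁻¹ = z := inv_eq_of_mul_eq_one_left h.zz
  obtain ⟨w, hw⟩ : ∃ w, w = z * g * z⁻¹ * g⁻¹ := ⟨_, rfl⟩
  have hwO : w ∈ pPrimeCore 2 G := by rw [hw]; exact S0215.iso_commutator z (h.iso hx) g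
  have hodd : Odd (orderOf w) := by
    refine Odd.of_dvd_nat odd_core ?_ (n := Nat.card (pPrimeCore 2 G))
    exact Subgroup.orderOf_dvd_natCard _ hwO
  obtain ⟨m, hm⟩ := hodd
  have hzw : z * w * z⁻¹ = w⁻¹ := by
    rw [hw, hzi]
    simp only [mul_inv_rev, inv_inv, hzi]
    calc z * (z * g * z * g⁻¹) * z = (z * z) * g * z * g⁻¹ * z := by group
      _ = g * (z * (g⁻¹ * z)) := by rw [h.zz]; group
  have hg : g * z * g⁻¹ = z * w := by
    rw [hw, hzi]
    calc g * z * g⁻¹ = 1 * g * z * g⁻¹ := by group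
      _ = z * (z * g * z * g⁻¹) := by rw [← h.zz]; group
  have h1 : w ^ m * z * (w ^ m)⁻¹ = z * w := by
    have h2 : z * w ^ m * z⁻¹ = (w ^ m)⁻¹ := by
      rw [← conj_pow, hzw, inv_pow]
    have h3 : w ^ m * z = z * (w ^ m)⁻¹ := by
      rw [← h2]
      calc w ^ m * z = (1 : G) * w ^ m * z := by group
        _ = z * (z * w ^ m * z) := by rw [← h.zz]; group
        _ = z * (z * w ^ m * z⁻¹) := by rw [hzi]
    rw [h3, mul_assoc, ← mul_inv_rev, ← pow_add]
    congr 1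
    rw [inv_eq_iff_mul_eq_one, ← pow_succ, ← two_mul, ← hm, pow_orderOf_eq_one]
  refine ⟨w ^ m, pow_mem hwO m, (w ^ m)⁻¹ * g, ?_, by group⟩
  have h4 : g * z = z * w * g := by rw [← hg]; group
  have h5 : w ^ m * z = z * w * w ^ m := by rw [← h1]; group
  have h6 : (w ^ m)⁻¹ * (z * w) = z * (w ^ m)⁻¹ := by
    rw [inv_mul_eq_iff_eq_mul, ← mul_assoc, h5]; group
  calc (w ^ m)⁻¹ * g * z = (w ^ m)⁻¹ * (g * z) := by group
    _ = (w ^ m)⁻¹ * (z * w) * g := by rw [h4]; group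
    _ = z * ((w ^ m)⁻¹ * g) := by rw [h6]; group

/-- `C(z) ∩ O(G) ≤ ⟨x⟩` -/
theorem Hyp.core_inf (h : Hyp p x z i j) (hx : ∀ g : G, g * x = x * g) {o : G}
    (ho : o ∈ pPrimeCore 2 G) (hz : o * z = z * o) : o ∈ zpowers x := by
  have hn : (pPrimeCore 2 G).Normal := Lib.Cores.pPrimeCore_normal 2
  refine h.odd (pPrimeCore 2 G ⊓ centralizer {z}) ?_ ?_ ?_ ⟨ho, ?_⟩
  · exact Odd.of_dvd_nat odd_core (Subgroup.card_dvd_of_le inf_le_left)
  · intro n hn
    exact ⟨hx n, mem_centralizer_singleton_iff.1 hn.2⟩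
  · intro e _ he n hnn
    refine ⟨hn.conj_mem n hnn.1 e, ?_⟩
    have h1 : e ∈ centralizer ({z} : Set G) := mem_centralizer_singleton_iff.2 he
    show e * n * e⁻¹ ∈ centralizer ({z} : Set G)
    exact mul_mem (mul_mem h1 hnn.2) (inv_mem h1)
  · exact mem_centralizer_singleton_iff.2 hz

/-- `z` inverts `O(G) / ⟨x⟩`, which is abelian -/
theorem Hyp.inverts (h : Hyp p x z i j) (hp : Odd p) (hx : ∀ g : G, g * x = x * g) :
    (∀ o ∈ pPrimeCore 2 G, z * o * z⁻¹ * o ∈ zpowers x) ∧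
      ∀ a ∈ pPrimeCore 2 G, ∀ b ∈ pPrimeCore 2 G, a * b * a⁻¹ * b⁻¹ ∈ zpowers x := by
  have hn : (pPrimeCore 2 G).Normal := Lib.Cores.pPrimeCore_normal 2
  have hxn : (zpowers x).Normal := by
    refine ⟨fun n hn g => ?_⟩
    obtain ⟨k, rfl⟩ := hn
    have h2 : Commute g (x ^ k) := (show Commute g x from hx g).zpow_right k
    rw [h2.eq, mul_inv_cancel_right]
    exact ⟨k, rfl⟩
  have hzi : z⁻¹ = z := inv_eq_of_mul_eq_one_left h.zz
  let f := QuotientGroup.mk' (zpowers x)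
  have hf : Function.Surjective f := QuotientGroup.mk'_surjective _
  have hfk : ∀ g, f g = 1 ↔ g ∈ zpowers x := fun g => QuotientGroup.eq_one_iff g
  have hWn : ((pPrimeCore 2 G).map f).Normal := hn.map f hf
  have h1 := inv_of_free (s := f z) (W := (pPrimeCore 2 G).map f) (by rw [← map_mul, h.zz, map_one]) (by
    rintro _ ⟨o, ho, rfl⟩ hc
    rw [hfk]
    have hc1 : z * o * z⁻¹ * o⁻¹ ∈ zpowers x := by
      rw [← hfk, map_mul, map_mul, map_mul, hc, map_inv, map_inv]; group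
    obtain ⟨y, hy⟩ : ∃ y, y = z * o * z⁻¹ * o⁻¹ := ⟨_, rfl⟩
    rw [← hy] at hc1
    have hyz : y * z = z * y := by
      obtain ⟨k, rfl⟩ := hc1
      exact ((show Commute x z from h.xz).zpow_left k).eq
    have hyo : y * o = z * o * z⁻¹ := by rw [hy]; group
    have hyy : y * y = 1 := by
      have h2 : z * (z * o * z⁻¹) * z⁻¹ = o := by
        calc z * (z * o * z⁻¹) * z⁻¹ = (z * z) * o * (z * z)⁻¹ := by group
          _ = o := by rw [h.zz]; group
      have h3 : z * (y * o) * z⁻¹ = y * (y * o) := by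
        calc z * (y * o) * z⁻¹ = (z * y) * o * z⁻¹ := by group
          _ = y * (z * o * z⁻¹) := by rw [← hyz]; group
          _ = y * (y * o) := by rw [hyo]
      rw [hyo, h2, ← hyo, ← mul_assoc] at h3
      exact (mul_eq_right.1 h3.symm)
    have hy1 := eq_one_of_sq hp h.xo hc1 hyy
    refine h.core_inf hx ho ?_
    rw [hy1, one_mul] at hyo
    conv_lhs => rw [hyo]
    group)
  constructor
  · intro o ho
    have h2 := h1.1 (f o) ⟨o, ho, rfl⟩
    rw [← hfk, map_mul, map_mul, map_mul, map_inv, h2]; group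
  · intro a ha b hb
    have h2 := h1.2 (f a) ⟨a, ha, rfl⟩ (f b) ⟨b, hb, rfl⟩
    rw [← hfk, map_mul, map_mul, map_mul, map_inv, map_inv, h2]; group

/-- the Sylow `p`-subgroup of `G` (with `x` central) is normal and contained in `O(G)` -/
theorem Hyp.sylow (h : Hyp p x z i j) (hpp : p.Prime) (hp : Odd p) (hx : ∀ g : G, g * x = x * g)
    (hz : ¬ p ^ 2 ∣ Nat.card (centralizer ({z} : Set G))) :
    ∃ P : Sylow p G, (P : Subgroup G).Normal ∧ (P : Subgroup G) ≤ pPrimeCore 2 G ∧ x ∈ P := by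
  have : Fact p.Prime := ⟨hpp⟩
  obtain ⟨O, hO⟩ : ∃ O, O = pPrimeCore 2 G := ⟨_, rfl⟩
  have hOn : O.Normal := hO ▸ Lib.Cores.pPrimeCore_normal 2
  have hxO : x ∈ O := hO ▸ h.x_mem hp hx
  obtain ⟨P0⟩ : Nonempty (Sylow p ↥O) := inferInstance
  -- `x ∈ P0`
  have hxP0 : (⟨x, hxO⟩ : ↥O) ∈ (P0 : Subgroup ↥O) := by
    have h1 : (zpowers (⟨x, hxO⟩ : ↥O)).Normal := by
      refine ⟨fun n hn g => ?_⟩
      obtain ⟨k, rfl⟩ := hn
      have h2 : Commute g ((⟨x, hxO⟩ : ↥O) ^ k) :=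
        (show Commute g (⟨x, hxO⟩ : ↥O) from Subtype.ext (hx g)).zpow_right k
      rw [h2.eq, mul_inv_cancel_right]
      exact ⟨k, rfl⟩
    have h2 : IsPGroup p (zpowers (⟨x, hxO⟩ : ↥O)) := by
      refine IsPGroup.of_card (n := 1) ?_
      rw [Nat.card_zpowers, pow_one, ← h.xo, ← Subgroup.orderOf_coe]
    exact Lib.Cores.pCore_le_sylow P0 (Lib.Cores.le_pCore h1 h2 (mem_zpowers _))
  have hP0n : (P0 : Subgroup ↥O).Normal := by
    refine ⟨fun n hn g => ?_⟩
    have h1 : g * n * g⁻¹ * n⁻¹ ∈ (P0 : Subgroup ↥O) := by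
      have h2 := (h.inverts hp hx).2 g (hO ▸ g.2) n (hO ▸ n.2)
      obtain ⟨k, hk⟩ := h2
      have h3 : g * n * g⁻¹ * n⁻¹ = (⟨x, hxO⟩ : ↥O) ^ k := Subtype.ext hk.symm
      rw [h3]
      exact zpow_mem hxP0 k
    have h2 := mul_mem h1 hn
    rwa [inv_mul_cancel_right] at h2
  have hP0c : (P0 : Subgroup ↥O).Characteristic := P0.characteristic_of_normal hP0n
  obtain ⟨P1, hP1⟩ : ∃ P1, P1 = (P0 : Subgroup ↥O).map O.subtype := ⟨_, rfl⟩
  have hP1n : P1.Normal := by rw [hP1]; exact ConjAct.normal_of_characteristic_of_normal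
  have hP1O : P1 ≤ O := by rw [hP1]; exact map_subtype_le _
  have hP1p : IsPGroup p P1 := by rw [hP1]; exact P0.2.map _
  have hi1 : P1.index = (P0 : Subgroup ↥O).index * O.index := by
    rw [← relIndex_mul_index hP1O, hP1, relIndex, subgroupOf, comap_map_eq_self_of_injective O.subtype_injective]
  have hi2 : ¬ p ∣ (P0 : Subgroup ↥O).index := P0.not_dvd_index
  have hi3 : ¬ p ∣ O.index := by
    intro hd
    apply hz
    let f := (QuotientGroup.mk' O).comp (centralizer ({z} : Set G)).subtype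
    have hf : Function.Surjective f := by
      intro q
      obtain ⟨g, rfl⟩ := QuotientGroup.mk'_surjective O q
      obtain ⟨o, ho, e, he, rfl⟩ := h.frattini hx g
      refine ⟨⟨e, mem_centralizer_singleton_iff.2 he⟩, ?_⟩
      show QuotientGroup.mk' O e = QuotientGroup.mk' O (o * e)
      rw [map_mul]
      have : QuotientGroup.mk' O o = 1 := (QuotientGroup.eq_one_iff o).2 (hO ▸ ho)
      rw [this, one_mul]
    have h1 : Nat.card (centralizer ({z} : Set G)) = Nat.card f.ker * O.index := by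
      rw [Subgroup.card_eq_card_quotient_mul_card_subgroup f.ker, mul_comm]
      congr 1
      exact Nat.card_congr (QuotientGroup.quotientKerEquivOfSurjective f hf).toEquiv
    have h2 : p ∣ Nat.card f.ker := by
      have h3 : (⟨x, mem_centralizer_singleton_iff.2 h.xz⟩ : centralizer ({z} : Set G)) ∈ f.ker := by
        rw [MonoidHom.mem_ker]
        exact (QuotientGroup.eq_one_iff x).2 hxO
      have h4 := Subgroup.orderOf_dvd_natCard _ h3
      rwa [← Subgroup.orderOf_coe, h.xo] at h4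
    rw [h1, pow_two]
    exact mul_dvd_mul h2 hd
  have hi4 : ¬ p ∣ P1.index := by
    rw [hi1]
    exact hpp.not_dvd_mul hi2 hi3
  refine ⟨hP1p.toSylow hi4, ?_, ?_, ?_⟩
  · rw [IsPGroup.toSylow_coe]; exact hP1n
  · rw [IsPGroup.toSylow_coe, ← hO]; exact hP1O
  · rw [IsPGroup.mem_toSylow, hP1]
    exact ⟨⟨x, hxO⟩, hxP0, rfl⟩

/-- `P / ⟨x⟩` cyclic implies `P ≤ ⟨x⟩` -/
theorem Hyp.noncyc (h : Hyp p x z i j) (hp : Odd p) (hx : ∀ g : G, g * x = x * g)
    [hxn : (zpowers x).Normal] {P : Subgroup G} [hP : P.Normal] (hPO : P ≤ pPrimeCore 2 G)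
    (hc : IsCyclic (P.map (QuotientGroup.mk' (zpowers x)))) : P ≤ zpowers x := by
  obtain ⟨f, hf⟩ : ∃ f, f = QuotientGroup.mk' (zpowers x) := ⟨_, rfl⟩
  rw [← hf] at hc
  have hfk : ∀ g, f g = 1 ↔ g ∈ zpowers x := fun g => by rw [hf]; exact QuotientGroup.eq_one_iff g
  obtain ⟨⟨w, hw⟩, hgen⟩ := hc.exists_generator
  have hgen' : ∀ y ∈ P.map f, ∃ k : ℤ, w ^ k = y := by
    intro y hy
    obtain ⟨k, hk⟩ := hgen ⟨y, hy⟩
    exact ⟨k, congrArg Subtype.val hk⟩
  have hconj : ∀ g : G, ∃ k : ℤ, f g * w * (f g)⁻¹ = w ^ k := by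
    intro g
    obtain ⟨v, hv, rfl⟩ := hw
    have h1 : f g * f v * (f g)⁻¹ ∈ P.map f :=
      ⟨g * v * g⁻¹, hP.conj_mem v hv g, by rw [map_mul, map_mul, map_inv]⟩
    obtain ⟨k, hk⟩ := hgen' _ h1
    exact ⟨k, hk.symm⟩
  obtain ⟨a, ha⟩ := hconj i
  obtain ⟨b, hb⟩ := hconj j
  have e1 : f i * f j * w * (f i * f j)⁻¹ = w ^ (a * b) := by
    calc f i * f j * w * (f i * f j)⁻¹ = f i * (f j * w * (f j)⁻¹) * (f i)⁻¹ := by group
      _ = w ^ (a * b) := by rw [hb, ← conj_zpow, ha, zpow_mul]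
  have e2 : f j * f i * w * (f j * f i)⁻¹ = w ^ (a * b) := by
    calc f j * f i * w * (f j * f i)⁻¹ = f j * (f i * w * (f i)⁻¹) * (f j)⁻¹ := by group
      _ = w ^ (a * b) := by rw [ha, ← conj_zpow, hb, mul_comm, zpow_mul]
  have e3 : f i * f j = f j * f i * f z := by rw [← map_mul, h.ij, map_mul, map_mul]
  have e4 : f z * w * (f z)⁻¹ = w := by
    have h1 : f j * f i * (f z * w * (f z)⁻¹) * (f j * f i)⁻¹ = f j * f i * w * (f j * f i)⁻¹ := by
      rw [e2, ← e1, e3]; group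
    exact mul_left_cancel (mul_right_cancel h1)
  have e5 : w * w = 1 := by
    obtain ⟨v, hv, rfl⟩ := hw
    have h1 := (h.inverts hp hx).1 v (hPO hv)
    rw [← hfk, map_mul, map_mul, map_mul, map_inv, e4] at h1
    exact h1
  have e6 : w = 1 := by
    obtain ⟨v, hv, rfl⟩ := hw
    have h1 : orderOf v ∣ Nat.card (pPrimeCore 2 G) := Subgroup.orderOf_dvd_natCard _ (hPO hv)
    have h2 : Odd (orderOf (f v)) :=
      Odd.of_dvd_nat odd_core ((orderOf_map_dvd f v).trans h1)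
    have h3 : orderOf (f v) ∣ 2 := orderOf_dvd_of_pow_eq_one (by rw [pow_two, e5])
    rcases (Nat.dvd_prime Nat.prime_two).1 h3 with h4 | h4
    · exact orderOf_eq_one_iff.1 h4
    · rw [h4] at h2; exact absurd h2 (by decide)
  intro v hv
  obtain ⟨k, hk⟩ := hgen' (f v) ⟨v, hv, rfl⟩
  rw [e6, one_zpow] at hk
  exact (hfk v).1 hk.symm

/-- order and exponent of `P` -/
theorem Hyp.card_ge (h : Hyp p x z i j) (hpp : p.Prime) (hp : Odd p) (hx : ∀ g : G, g * x = x * g)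
    {P : Subgroup G} [hP : P.Normal] (hPO : P ≤ pPrimeCore 2 G) (hPp : IsPGroup p P) (hxP : x ∈ P)
    (hne : ¬ P ≤ zpowers x) :
    p ^ 3 ∣ Nat.card P ∧ (Nat.card P = p ^ 3 → ∀ g ∈ P, g ^ p = 1) := by
  have : Fact p.Prime := ⟨hpp⟩
  have hxn : (zpowers x).Normal := by
    refine ⟨fun n hn g => ?_⟩
    obtain ⟨k, rfl⟩ := hn
    have h2 : Commute g (x ^ k) := (show Commute g x from hx g).zpow_right k
    rw [h2.eq, mul_inv_cancel_right]
    exact ⟨k, rfl⟩
  have hnc : ¬ IsCyclic (P.map (QuotientGroup.mk' (zpowers x))) := fun hc =>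
    hne (h.noncyc hp hx hPO hc)
  have hxle : zpowers x ≤ P := (zpowers_le).2 hxP
  have hcard : Nat.card P = p * Nat.card (P.map (QuotientGroup.mk' (zpowers x))) := by
    have h1 := relIndex_ker (K := P) (QuotientGroup.mk' (zpowers x))
    rw [QuotientGroup.ker_mk'] at h1
    rw [← h1, ← h.xo, ← Nat.card_zpowers, ← relIndex_bot_left, ← relIndex_bot_left,
      relIndex_mul_relIndex _ _ _ bot_le hxle]
  obtain ⟨m, hm⟩ := IsPGroup.iff_card.1 (hPp.map (QuotientGroup.mk' (zpowers x)))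
  have hm2 : 2 ≤ m := by
    by_contra hlt
    apply hnc
    have h1 : m = 0 ∨ m = 1 := by omega
    rcases h1 with h1 | h1
    · rw [h1, pow_zero] at hm
      have := (Nat.card_eq_one_iff_unique.1 hm).1
      infer_instance
    · rw [h1, pow_one] at hm
      exact isCyclic_of_prime_card hm
  refine ⟨?_, fun hP3 g hg => ?_⟩
  · rw [hcard, hm, ← pow_succ']
    exact pow_dvd_pow p (by omega)
  · have hm' : m = 2 := by
      rw [hcard, hm, ← pow_succ'] at hP3
      have := Nat.pow_right_injective hpp.two_le hP3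
      omega
    rw [hm'] at hm
    obtain ⟨f, hf⟩ : ∃ f, f = QuotientGroup.mk' (zpowers x) := ⟨_, rfl⟩
    have hfk : ∀ g, f g = 1 ↔ g ∈ zpowers x := fun g => by rw [hf]; exact QuotientGroup.eq_one_iff g
    rw [← hf] at hm hnc
    have h1 : f g ∈ P.map f := ⟨g, hg, rfl⟩
    have h2 : orderOf (f g) ∣ p ^ 2 := by rw [← hm]; exact Subgroup.orderOf_dvd_natCard _ h1
    obtain ⟨l, hl, hl2⟩ := (Nat.dvd_prime_pow hpp).1 h2
    have hl3 : l ≠ 2 := by
      rintro rfl
      apply hnc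
      refine isCyclic_of_orderOf_eq_card (⟨f g, h1⟩ : P.map f) ?_
      rw [← Subgroup.orderOf_coe, hm]
      exact hl2
    have h3 : orderOf (f g) ∣ p := by
      rw [hl2]
      have : l = 0 ∨ l = 1 := by omega
      rcases this with h | h
      · rw [h, pow_zero]; exact one_dvd _
      · rw [h, pow_one]
    have h4 : g ^ p ∈ zpowers x := by
      rw [← hfk, map_pow]
      exact orderOf_dvd_iff_pow_eq_one.1 h3
    obtain ⟨y, hy⟩ : ∃ y, y = z * g * z⁻¹ * g := ⟨_, rfl⟩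
    have hy1 : y ∈ zpowers x := by rw [hy]; exact (h.inverts hp hx).1 g (hPO hg)
    have hyc : ∀ c : G, Commute y c := by
      intro c
      obtain ⟨k, rfl⟩ := hy1
      exact (show Commute x c from (hx c).symm).zpow_left k
    have h5 : z * g * z⁻¹ = y * g⁻¹ := by rw [hy]; group
    have hyp : y ^ p = 1 := by
      obtain ⟨k, rfl⟩ := hy1
      rw [← zpow_natCast, ← zpow_mul, mul_comm, zpow_mul, zpow_natCast, ← h.xo, pow_orderOf_eq_one,
        one_zpow]
    have h6 : g ^ p = (g ^ p)⁻¹ := by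
      have h7 : z * g ^ p * z⁻¹ = g ^ p := by
        obtain ⟨k, hk⟩ := h4
        rw [← hk]
        have : Commute z (x ^ k) := (show Commute z x from h.xz.symm).zpow_right k
        rw [this.eq, mul_inv_cancel_right]
      calc g ^ p = z * g ^ p * z⁻¹ := h7.symm
        _ = (y * g⁻¹) ^ p := by rw [← conj_pow, h5]
        _ = (g ^ p)⁻¹ := by rw [(hyc g⁻¹).mul_pow, hyp, one_mul, inv_pow]
    refine eq_one_of_sq hp h.xo h4 ?_
    conv_lhs => rw [h6]
    rw [mul_eq_one_iff_eq_inv, inv_inj]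
    exact h6

end central

/-- transfer to the centralizer `C` of `x` -/
theorem Hyp.sub {p : ℕ} {x z i j : G} (h : Hyp p x z i j) {C : Subgroup G}
    (hC : ∀ c : G, c ∈ C ↔ c * x = x * c) :
    Hyp p (⟨x, (hC x).2 rfl⟩ : C) ⟨z, (hC z).2 h.xz.symm⟩ ⟨i, (hC i).2 h.ix⟩ ⟨j, (hC j).2 h.jx⟩ where
  xo := by rw [← Subgroup.orderOf_coe]; exact h.xo
  zz := Subtype.ext h.zz
  z1 := fun h1 => h.z1 (congrArg Subtype.val h1)
  xz := Subtype.ext h.xz
  only := fun t h1 h2 h3 => by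
    rcases h.only t (congrArg Subtype.val h1) (congrArg Subtype.val h2) (congrArg Subtype.val h3) with
      h4 | h4
    · exact Or.inl (Subtype.ext h4)
    · exact Or.inr (Subtype.ext h4)
  ix := Subtype.ext h.ix
  jx := Subtype.ext h.jx
  ii := Subtype.ext h.ii
  jj := Subtype.ext h.jj
  ij := Subtype.ext h.ij
  odd := fun N h1 h2 h3 => by
    have h4 := h.odd (N.map C.subtype)
      (by rw [card_map_of_injective (subtype_injective _)]; exact h1)
      (by
        rintro _ ⟨n, hn, rfl⟩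
        exact ⟨congrArg Subtype.val (h2 n hn).1, congrArg Subtype.val (h2 n hn).2⟩)
      (by
        rintro e hex hez _ ⟨n, hn, rfl⟩
        exact ⟨_, h3 ⟨e, (hC e).2 hex⟩ (Subtype.ext hex) (Subtype.ext hez) n hn, rfl⟩)
    intro n hn
    obtain ⟨k, hk⟩ := h4 ⟨n, hn, rfl⟩
    exact ⟨k, Subtype.ext hk⟩

/-- the result of the local analysis -/
structure Out (p : ℕ) (x z : G) (P : Sylow p G) (O : Subgroup G) : Prop where
  card : Nat.card P = p ^ 3
  exp : ∀ g ∈ P, g ^ p = 1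
  xP : x ∈ P
  cent : ∀ g ∈ P, g * x = x * g
  norm : ∀ c : G, c * x = x * c → ∀ g ∈ P, c * g * c⁻¹ ∈ P
  inv : ∀ g ∈ P, z * g * z⁻¹ * g ∈ zpowers x
  comm : ∀ a ∈ P, ∀ b ∈ P, a * b * a⁻¹ * b⁻¹ ∈ zpowers x
  PO : (P : Subgroup G) ≤ O
  oddO : Odd (Nat.card O)
  centO : ∀ o ∈ O, o * x = x * o
  normO : ∀ c : G, c * x = x * c → ∀ o ∈ O, c * o * c⁻¹ ∈ O
  frat : ∀ c : G, c * x = x * c → ∃ o ∈ O, ∃ e : G, e * x = x * e ∧ e * z = z * e ∧ c = o * e
  invO : ∀ o ∈ O, z * o * z⁻¹ * o ∈ zpowers x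
  commO : ∀ a ∈ O, ∀ b ∈ O, a * b * a⁻¹ * b⁻¹ ∈ zpowers x
  inf : ∀ o ∈ O, o * z = z * o → o ∈ zpowers x

/-- a `p`-subgroup of the centralizer of `x` is contained in `P` -/
theorem Out.le {p : ℕ} {x z : G} {P : Sylow p G} {O : Subgroup G} (h : Out p x z P O)
    {R : Subgroup G} (hR : IsPGroup p R) (hx : ∀ r ∈ R, r * x = x * r) : R ≤ P := by
  have h1 : R ≤ normalizer ((P : Subgroup G) : Set G) := by
    intro r hr
    rw [mem_normalizer_iff]
    intro g
    refine ⟨fun hg => h.norm r (hx r hr) g hg, fun hg => ?_⟩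
    have hr' : r⁻¹ * x = x * r⁻¹ := hx r⁻¹ (inv_mem hr)
    have h2 := h.norm r⁻¹ hr' _ hg
    have h3 : r⁻¹ * (r * g * r⁻¹) * r⁻¹⁻¹ = g := by group
    rwa [h3] at h2
  have h2 : IsPGroup p ↥(R ⊔ (P : Subgroup G)) := hR.to_sup_of_normal_right' P.2 h1
  have h3 : R ⊔ (P : Subgroup G) = P := P.3 h2 le_sup_right
  rw [← h3]
  exact le_sup_left

theorem exists_out [Finite G] {p : ℕ} {x z i j : G} (h : Hyp p x z i j) (hpp : p.Prime) (hp : Odd p)
    (h3 : p ^ 3 ∣ Nat.card G) (h4 : ¬ p ^ 4 ∣ Nat.card G)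
    (hz : ¬ p ^ 2 ∣ Nat.card (centralizer ({z} : Set G))) :
    ∃ (P : Sylow p G) (O : Subgroup G), Out p x z P O := by
  have : Fact p.Prime := ⟨hpp⟩
  obtain ⟨C, hC⟩ : ∃ C, C = centralizer ({x} : Set G) := ⟨_, rfl⟩
  have hmem : ∀ c : G, c ∈ C ↔ c * x = x * c := fun c => by
    rw [hC]; exact mem_centralizer_singleton_iff
  have hs := h.sub hmem
  obtain ⟨x', hx'⟩ : ∃ x' : C, x' = ⟨x, (hmem x).2 rfl⟩ := ⟨_, rfl⟩
  obtain ⟨z', hz'⟩ : ∃ z' : C, z' = ⟨z, (hmem z).2 h.xz.symm⟩ := ⟨_, rfl⟩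
  have hxv : (x' : G) = x := by rw [hx']
  have hzv : (z' : G) = z := by rw [hz']
  rw [← hx', ← hz'] at hs
  have hxc : ∀ c : C, c * x' = x' * c := by
    intro c
    apply Subtype.ext
    rw [Subgroup.coe_mul, Subgroup.coe_mul, hxv]
    exact (hmem c).1 c.2
  have hz2 : ¬ p ^ 2 ∣ Nat.card (centralizer ({z'} : Set ↥C)) := by
    intro hd
    apply hz
    have h1 : (centralizer ({z'} : Set ↥C)).map C.subtype ≤ centralizer ({z} : Set G) := by
      rintro _ ⟨c, hc, rfl⟩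
      rw [mem_centralizer_singleton_iff]
      have := congrArg Subtype.val (mem_centralizer_singleton_iff.1 hc)
      rw [Subgroup.coe_mul, Subgroup.coe_mul, hzv] at this
      exact this
    have h2 := Subgroup.card_dvd_of_le h1
    rw [card_map_of_injective (subtype_injective _)] at h2
    exact hd.trans h2
  obtain ⟨P0, hP0n, hP0O, hxP0⟩ := hs.sylow hpp hp hxc hz2
  obtain ⟨O, hO⟩ : ∃ O, O = (pPrimeCore 2 ↥C).map C.subtype := ⟨_, rfl⟩
  have hCO : (pPrimeCore 2 ↥C).Normal := Lib.Cores.pPrimeCore_normal 2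
  -- `P0` is not contained in `⟨x⟩`
  have hle : ∀ R : Subgroup G, IsPGroup p R → (∀ r ∈ R, r * x = x * r) → ∀ r ∈ R,
      ∃ r' ∈ (P0 : Subgroup ↥C), (r' : G) = r := by
    intro R hR hRx
    have hRC : R ≤ C := fun r hr => (hmem r).2 (hRx r hr)
    have h1 : IsPGroup p ↥(R.subgroupOf C ⊔ (P0 : Subgroup ↥C)) :=
      (hR.comap_subtype (K := C)).to_sup_of_normal_right P0.2
    have h2 : R.subgroupOf C ⊔ (P0 : Subgroup ↥C) = P0 := P0.3 h1 le_sup_right
    intro r hr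
    refine ⟨⟨r, hRC hr⟩, ?_, rfl⟩
    rw [← h2]
    exact (le_sup_left : R.subgroupOf C ≤ _) (mem_subgroupOf.2 hr)
  have hne : ¬ (P0 : Subgroup ↥C) ≤ zpowers x' := by
    intro hcon
    obtain ⟨T, hT⟩ := (IsPGroup.of_card (p := p) (n := 1) (by
      rw [Nat.card_zpowers, pow_one]; exact h.xo) : IsPGroup p (zpowers x)).exists_le_sylow
    have hxT : x ∈ T := hT (mem_zpowers x)
    have hTc : p ^ 3 ∣ Nat.card T := T.pow_dvd_card_of_pow_dvd_card h3
    -- `C_T(x) = ⟨x⟩`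
    have hCT : ∀ c ∈ T, c * x = x * c → c ∈ zpowers x := by
      intro c hc hcx
      have h1 : zpowers c ≤ T := (zpowers_le).2 hc
      have h2 : IsPGroup p (zpowers c) := T.2.to_le h1
      obtain ⟨r', hr', hr'c⟩ := hle (zpowers c) h2 (by
        rintro _ ⟨k, rfl⟩
        exact ((show Commute c x from hcx).zpow_left k).eq) c (mem_zpowers c)
      obtain ⟨k, hk⟩ := hcon hr'
      refine ⟨k, ?_⟩
      rw [← hr'c, ← hk, ← hxv]
      rfl
    have hTn : Nontrivial (T : Subgroup G) := by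
      rw [← Finite.one_lt_card_iff_nontrivial]
      exact lt_of_lt_of_le (Nat.one_lt_pow (by norm_num) hpp.one_lt) (Nat.le_of_dvd Nat.card_pos hTc)
    have hZn : Nontrivial (center ↥(T : Subgroup G)) := T.2.center_nontrivial
    obtain ⟨⟨y, hy⟩, hy1⟩ := exists_ne (1 : center ↥(T : Subgroup G))
    have hyT : (y : G) ∈ T := y.2
    have hyc : ∀ t ∈ T, (y : G) * t = t * y := fun t ht =>
      congrArg Subtype.val (mem_center_iff.1 hy ⟨t, ht⟩).symm
    have hyx : (y : G) ∈ zpowers x := hCT y hyT (hyc x hxT)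
    have hy1' : (y : G) ≠ 1 := fun h1 => hy1 (Subtype.ext (Subtype.ext h1))
    have hxy : x ∈ zpowers (y : G) := by
      have h1 : zpowers (y : G) = zpowers x := by
        refine eq_of_le_of_card_ge ((zpowers_le).2 hyx) ?_
        rw [Nat.card_zpowers, Nat.card_zpowers]
        refine Nat.le_of_dvd (orderOf_pos _) ?_
        have h2 : orderOf (y : G) ∣ p := by
          have h8 := Subgroup.orderOf_dvd_natCard _ hyx
          rwa [Nat.card_zpowers, h.xo] at h8
        rcases (Nat.dvd_prime hpp).1 h2 with h5 | h5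
        · exact absurd (orderOf_eq_one_iff.1 h5) hy1'
        · rw [h5, h.xo]
      rw [h1]
      exact mem_zpowers x
    have hTx : (T : Subgroup G) ≤ zpowers x := by
      intro t ht
      refine hCT t ht ?_
      obtain ⟨k, rfl⟩ := hxy
      exact ((show Commute (y : G) t from hyc t ht).zpow_left k).symm.eq
    have h5 := Nat.le_of_dvd Nat.card_pos (Subgroup.card_dvd_of_le hTx)
    rw [Nat.card_zpowers, h.xo] at h5
    have h6 := Nat.le_of_dvd Nat.card_pos hTc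
    have h7 : p ^ 1 < p ^ 3 := Nat.pow_lt_pow_right hpp.one_lt (by norm_num)
    rw [pow_one] at h7
    exact absurd (h6.trans h5) (not_le.2 h7)
  obtain ⟨hcard, hexp⟩ := hs.card_ge hpp hp hxc hP0O P0.2 hxP0 hne
  obtain ⟨PG, hPG⟩ : ∃ PG, PG = (P0 : Subgroup ↥C).map C.subtype := ⟨_, rfl⟩
  have hPGc : Nat.card PG = Nat.card P0 := by
    rw [hPG]; exact card_map_of_injective (subtype_injective _)
  have hPGp : IsPGroup p PG := by rw [hPG]; exact P0.2.map _
  obtain ⟨n, hn⟩ := IsPGroup.iff_card.1 hPGp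
  have hn3 : n = 3 := by
    have h1 : 3 ≤ n := by
      rw [← hPGc, hn] at hcard
      exact (Nat.pow_dvd_pow_iff_le_right hpp.one_lt).1 hcard
    have h2 : ¬ 4 ≤ n := by
      intro h2
      apply h4
      have h5 : p ^ 4 ∣ Nat.card PG := by rw [hn]; exact pow_dvd_pow p h2
      exact h5.trans (Subgroup.card_subgroup_dvd_card PG)
    omega
  rw [hn3] at hn
  have hidx : ¬ p ∣ PG.index := by
    rintro ⟨k, hk⟩
    apply h4
    rw [← card_mul_index PG, hn, hk]
    exact ⟨k, by ring⟩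
  have hmemP : ∀ g, g ∈ hPGp.toSylow hidx ↔ ∃ g' ∈ (P0 : Subgroup ↥C), (g' : G) = g := by
    intro g
    rw [IsPGroup.mem_toSylow, hPG]
    rfl
  have hmemO : ∀ g, g ∈ O ↔ ∃ g' ∈ pPrimeCore 2 ↥C, (g' : G) = g := by
    intro g
    rw [hO]
    rfl
  have hzx : ∀ g' : C, g' ∈ zpowers x' → (g' : G) ∈ zpowers x := by
    rintro _ ⟨k, rfl⟩
    exact ⟨k, by rw [← hxv]; rfl⟩
  have hexp' := hexp (by rw [← hPGc, hn])
  refine ⟨hPGp.toSylow hidx, O, ?_, ?_, ?_, ?_, ?_, ?_, ?_, ?_, ?_, ?_, ?_, ?_, ?_, ?_, ?_⟩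
  · exact hn
  · intro g hg
    obtain ⟨g', hg', rfl⟩ := (hmemP g).1 hg
    exact congrArg Subtype.val (hexp' g' hg')
  · exact (hmemP x).2 ⟨x', hxP0, hxv⟩
  · intro g hg
    obtain ⟨g', hg', rfl⟩ := (hmemP g).1 hg
    exact (hmem g').1 g'.2
  · intro c hc g hg
    obtain ⟨g', hg', rfl⟩ := (hmemP g).1 hg
    exact (hmemP _).2 ⟨_, hP0n.conj_mem g' hg' ⟨c, (hmem c).2 hc⟩, rfl⟩
  · intro g hg
    obtain ⟨g', hg', rfl⟩ := (hmemP g).1 hg
    have := hzx _ ((hs.inverts hp hxc).1 g' (hP0O hg'))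
    rw [← hzv]
    exact this
  · intro a ha b hb
    obtain ⟨a', ha', rfl⟩ := (hmemP a).1 ha
    obtain ⟨b', hb', rfl⟩ := (hmemP b).1 hb
    exact hzx _ ((hs.inverts hp hxc).2 a' (hP0O ha') b' (hP0O hb'))
  · intro g hg
    obtain ⟨g', hg', rfl⟩ := (hmemP g).1 hg
    exact (hmemO _).2 ⟨g', hP0O hg', rfl⟩
  · rw [hO, card_map_of_injective (subtype_injective _)]
    exact odd_core
  · intro g hg
    obtain ⟨g', hg', rfl⟩ := (hmemO g).1 hg
    exact (hmem g').1 g'.2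
  · intro c hc g hg
    obtain ⟨g', hg', rfl⟩ := (hmemO g).1 hg
    exact (hmemO _).2 ⟨_, hCO.conj_mem g' hg' ⟨c, (hmem c).2 hc⟩, rfl⟩
  · intro c hc
    obtain ⟨o, ho, e, he, hoe⟩ := hs.frattini hxc ⟨c, (hmem c).2 hc⟩
    refine ⟨o, (hmemO _).2 ⟨o, ho, rfl⟩, e, (hmem e).1 e.2, ?_, congrArg Subtype.val hoe⟩
    have := congrArg Subtype.val he
    rw [← hzv]
    exact this
  · intro g hg
    obtain ⟨g', hg', rfl⟩ := (hmemO g).1 hg
    have := hzx _ ((hs.inverts hp hxc).1 g' hg')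
    rw [← hzv]
    exact this
  · intro a ha b hb
    obtain ⟨a', ha', rfl⟩ := (hmemO a).1 ha
    obtain ⟨b', hb', rfl⟩ := (hmemO b).1 hb
    exact hzx _ ((hs.inverts hp hxc).2 a' ha' b' hb')
  · intro o ho hoz
    obtain ⟨o', ho', rfl⟩ := (hmemO o).1 ho
    refine hzx _ (hs.core_inf hxc ho' ?_)
    apply Subtype.ext
    rw [Subgroup.coe_mul, Subgroup.coe_mul, hzv]
    exact hoz

end Cfsg.Agent.H757.RvT
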