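import Cfsg.Agent.ThType.SpinData
import Mathlib.GroupTheory.Perm.Finite
import Mathlib.GroupTheory.Perm.Cycle.Type

/-!
# The centralizer of a 5-cycle in `S₉` (helper757, for S5207)
-/

set_option autoImplicit false

namespace Cfsg.Agent.H757.ThF

open Equiv Cfsg.Agent.ThType.SpinData

/-- the embedding `S₅ × S₄ → S₉` -/
def em : Perm (Fin 5) × Perm (Fin 4) →* Perm (Fin 9) :=
  (finSumFinEquiv (m := 5) (n := 4)).permCongrHom.toMonoidHom.comp (Perm.sumCongrHom (Fin 5) (Fin 4))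

/-- the 5-cycle `0 → 3 → 1 → 4 → 2 → 0` -/
def s5 : Perm (Fin 5) := swap 0 1 * swap 1 2 * (swap 0 1 * swap 1 3) * (swap 0 1 * swap 1 4)

def sig : alternatingGroup (Fin 9) := cyc 0 * cyc 1 * cyc 2

/-- `(5 6)(7 8)` -/
def al : alternatingGroup (Fin 9) := ⟨swap 5 6 * swap 7 8, by rw [Perm.mem_alternatingGroup]; decide⟩

/-- `(5 7)(6 8)` -/
def be : alternatingGroup (Fin 9) := ⟨swap 5 7 * swap 6 8, by rw [Perm.mem_alternatingGroup]; decide⟩

/-- `(2 3)(1 4)` -/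
def ga : alternatingGroup (Fin 9) := ⟨swap 2 3 * swap 1 4, by rw [Perm.mem_alternatingGroup]; decide⟩

theorem sig_coe : (sig : Perm (Fin 9)) = em (s5, 1) := by decide +kernel

theorem s5_pow : s5 ^ 5 = 1 := by decide +kernel

theorem cent_s5 : ∀ t : Perm (Fin 5), t * s5 = s5 * t → ∃ k : Fin 5, t = s5 ^ (k : ℕ) := by decide +kernel

theorem sig_lt : ∀ a : Fin 9, a < 5 → (sig : Perm (Fin 9)) a ≠ a := by decide +kernel

theorem sig_ge : ∀ a : Fin 9, ¬ a < 5 → (sig : Perm (Fin 9)) a = a := by decide +kernel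

theorem em_injective : Function.Injective em := fun _ _ h =>
  Perm.sumCongrHom_injective ((finSumFinEquiv (m := 5) (n := 4)).permCongrHom.injective h)

/-- the centralizer of the 5-cycle -/
theorem cent_sig {t : Perm (Fin 9)} (h : t * sig = sig * t) : ∃ (k : Fin 5) (u : Perm (Fin 4)),
    t = em (s5 ^ (k : ℕ), u) := by
  have hlt : ∀ a : Fin 9, a < 5 → t a < 5 := by
    intro a ha
    by_contra hta
    have h1 := sig_ge (t a) hta
    have h2 : t ((sig : Perm (Fin 9)) a) = (sig : Perm (Fin 9)) (t a) := by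
      rw [← Perm.mul_apply, h, Perm.mul_apply]
    rw [h1] at h2
    exact sig_lt a ha (t.injective h2)
  let T : Perm (Fin 5 ⊕ Fin 4) := (finSumFinEquiv (m := 5) (n := 4)).symm.permCongr t
  have hT : T ∈ (Perm.sumCongrHom (Fin 5) (Fin 4)).range := by
    refine Perm.mem_sumCongrHom_range_of_perm_mapsTo_inl ?_
    rintro _ ⟨a, rfl⟩
    have h1 : t (finSumFinEquiv (Sum.inl a : Fin 5 ⊕ Fin 4)) < 5 := by
      apply hlt
      rw [finSumFinEquiv_apply_left, Fin.lt_def]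
      exact a.2
    refine ⟨⟨(t (finSumFinEquiv (Sum.inl a : Fin 5 ⊕ Fin 4))).1, h1⟩, ?_⟩
    show _ = (finSumFinEquiv (m := 5) (n := 4)).symm (t (finSumFinEquiv (Sum.inl a : Fin 5 ⊕ Fin 4)))
    rw [Equiv.eq_symm_apply, finSumFinEquiv_apply_left]
    rfl
  obtain ⟨⟨t1, u⟩, hu⟩ := hT
  have ht : t = em (t1, u) := by
    show t = (finSumFinEquiv (m := 5) (n := 4)).permCongr (Perm.sumCongrHom (Fin 5) (Fin 4) (t1, u))
    rw [hu]
    ext a
    simp [T]
  rw [ht, sig_coe, ← map_mul, ← map_mul] at h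
  have h2 := congrArg Prod.fst (em_injective h)
  obtain ⟨k, hk⟩ := cent_s5 t1 h2
  exact ⟨k, u, by rw [ht, hk]⟩

theorem card_support_le : ∀ u : Perm (Fin 4), (em (1, u)).support.card ≤ 4 := by decide +kernel

set_option maxRecDepth 10000 in
/-- involutions centralising the 5-cycle -/
theorem sq_one : ∀ (k : Fin 5) (u : Perm (Fin 4)), em (s5 ^ (k : ℕ), u) * em (s5 ^ (k : ℕ), u) = 1 →
    (em (s5 ^ (k : ℕ), u)).support.card ≤ 4 := by decide +kernel

/-- commutators with `α` have square `1` -/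
theorem comm_al : ∀ (k : Fin 5) (u : Perm (Fin 4)),
    ((al : Perm (Fin 9)) * em (s5 ^ (k : ℕ), u) * (al : Perm (Fin 9))⁻¹ * (em (s5 ^ (k : ℕ), u))⁻¹) *
    ((al : Perm (Fin 9)) * em (s5 ^ (k : ℕ), u) * (al : Perm (Fin 9))⁻¹ * (em (s5 ^ (k : ℕ), u))⁻¹) = 1 := by
  decide +kernel

theorem comm_be : ∀ (k : Fin 5) (u : Perm (Fin 4)),
    ((be : Perm (Fin 9)) * em (s5 ^ (k : ℕ), u) * (be : Perm (Fin 9))⁻¹ * (em (s5 ^ (k : ℕ), u))⁻¹) *
    ((be : Perm (Fin 9)) * em (s5 ^ (k : ℕ), u) * (be : Perm (Fin 9))⁻¹ * (em (s5 ^ (k : ℕ), u))⁻¹) = 1 := by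
  decide +kernel

theorem comm_both : ∀ (k : Fin 5) (u : Perm (Fin 4)),
    (al : Perm (Fin 9)) * em (s5 ^ (k : ℕ), u) = em (s5 ^ (k : ℕ), u) * (al : Perm (Fin 9)) ∧
    (be : Perm (Fin 9)) * em (s5 ^ (k : ℕ), u) = em (s5 ^ (k : ℕ), u) * (be : Perm (Fin 9)) → u * u = 1 := by
  decide +kernel

end Cfsg.Agent.H757.ThF
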